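import Cfsg.Agent.CF.Control

/-!
Local-to-global reduction for a functor paired with the centralizer of a central functor.
-/

set_option autoImplicit false

open scoped commutatorElement

namespace Cfsg.Agent.CF

open Cfsg.Agent.Fusion

variable {G : Type*} [Group G] {p : ℕ}

/-- `N(W Q) ∪ C(V Q)`, cut down to `H`. -/
def PairStep (W V : Subgroup G → Subgroup G) (H Q : Subgroup G) : Set G :=
  {x | x ∈ H ⊓ Nz (W Q) ∨ x ∈ H ⊓ Subgroup.centralizer (V Q : Set G)}

theorem pairStep_inv {W V : Subgroup G → Subgroup G} {H Q : Subgroup G} :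
    ∀ x ∈ PairStep W V H Q, x⁻¹ ∈ PairStep W V H Q := by
  rintro x (hx | hx)
  exacts [Or.inl (inv_mem hx), Or.inr (inv_mem hx)]

theorem cj_centralizer (g : G) (A : Subgroup G) :
    cj g (Subgroup.centralizer (A : Set G)) = Subgroup.centralizer (cj g A : Set G) := by
  ext x
  rw [mem_cj, Subgroup.mem_centralizer_iff, Subgroup.mem_centralizer_iff]
  constructor
  · intro h a ha
    have h1 := h _ (mem_cj.mp ha)
    calc a * x = g * ((g⁻¹ * a * g) * (g⁻¹ * x * g)) * g⁻¹ := by group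
      _ = g * ((g⁻¹ * x * g) * (g⁻¹ * a * g)) * g⁻¹ := by rw [h1]
      _ = x * a := by group
  · intro h a ha
    have h1 := h _ (conj_mem_cj.mpr ha : g * a * g⁻¹ ∈ cj g A)
    calc a * (g⁻¹ * x * g) = g⁻¹ * (g * a * g⁻¹ * x) * g := by group
      _ = g⁻¹ * (x * (g * a * g⁻¹)) * g := by rw [h1]
      _ = g⁻¹ * x * g * a := by group

variable [Fact p.Prime] [Finite G] {S : Sylow p G} {W V : Subgroup G → Subgroup G}
  {Φ : Subgroup G → G → Prop}

omit [Fact p.Prime] [Finite G] in
theorem centre_le {P : Subgroup G} (hPS : P ≤ (S : Subgroup G))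
    (hZ : (S : Subgroup G) ⊓ Subgroup.centralizer ((S : Subgroup G) : Set G) ≤ P) :
    (S : Subgroup G) ⊓ Subgroup.centralizer ((S : Subgroup G) : Set G) ≤
      P ⊓ Subgroup.centralizer (P : Set G) :=
  le_inf hZ (inf_le_right.trans (Subgroup.centralizer_le hPS))

omit [Finite G] in
theorem centre_sylow_ne_bot (hS : (S : Subgroup G) ≠ ⊥) [Finite G] :
    (S : Subgroup G) ⊓ Subgroup.centralizer ((S : Subgroup G) : Set G) ≠ ⊥ := by
  have : Nontrivial (S : Subgroup G) := (Subgroup.nontrivial_iff_ne_bot _).mpr hS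
  have := S.2.center_nontrivial
  obtain ⟨z, hz⟩ := exists_ne (1 : Subgroup.center (S : Subgroup G))
  intro he
  refine hz (Subtype.ext (Subtype.ext ?_))
  have hmem : ((z : (S : Subgroup G)) : G) ∈
      (S : Subgroup G) ⊓ Subgroup.centralizer ((S : Subgroup G) : Set G) :=
    ⟨(z : (S : Subgroup G)).2, Subgroup.mem_centralizer_iff.mpr fun a ha =>
      congrArg Subtype.val (Subgroup.mem_center_iff.mp z.2 ⟨a, ha⟩)⟩
  rw [he, Subgroup.mem_bot] at hmem
  exact hmem

/-- Pair control in the `N(H)`, `Z(S) ≤ H ≤ S`, gives decompositions everywhere. -/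
theorem decomp_of_central_pair (hS : (S : Subgroup G) ≠ ⊥) (hΦ : IsDecomp (S : Subgroup G) Φ)
    (hW : Cfsg.IsConjugacyFunctor p W)
    (hWZ : ∀ H : Subgroup G, IsPGroup p H → H ⊓ Subgroup.centralizer (H : Set G) ≤ W H)
    (hVmono : ∀ H K : Subgroup G, IsPGroup p H → IsPGroup p K → H ≠ ⊥ → K ≠ ⊥ →
      H ⊓ Subgroup.centralizer (H : Set G) ≤ K ⊓ Subgroup.centralizer (K : Set G) → V H ≤ V K)
    (hbase : ∀ x ∈ PairStep W V ⊤ (S : Subgroup G), ∀ D : Subgroup G, D ≤ (S : Subgroup G) →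
      cj x D ≤ (S : Subgroup G) → Φ D x)
    (hloc : ∀ H : Subgroup G, (S : Subgroup G) ⊓ Subgroup.centralizer ((S : Subgroup G) : Set G) ≤ H →
      H ≤ (S : Subgroup G) → IsSyl p ((S : Subgroup G) ⊓ Nz H) (Nz H) →
      (∀ x ∈ PairStep W V (Nz H) ((S : Subgroup G) ⊓ Nz H), ∀ D : Subgroup G,
        D ≤ (S : Subgroup G) ⊓ Nz H → cj x D ≤ (S : Subgroup G) ⊓ Nz H → Φ D x) →
      ∀ n ∈ Nz H, ∀ D : Subgroup G, D ≤ (S : Subgroup G) ⊓ Nz H →
        cj n D ≤ (S : Subgroup G) ⊓ Nz H → Φ D n)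
    {D : Subgroup G} {g : G} (hD : D ≤ (S : Subgroup G)) (hg : cj g D ≤ (S : Subgroup G)) :
    Φ D g := by
  set Z := (S : Subgroup G) ⊓ Subgroup.centralizer ((S : Subgroup G) : Set G) with hZdef
  have hZ0 : Z ≠ ⊥ := centre_sylow_ne_bot hS
  suffices main : ∀ (j m : ℕ), Nat.card (S : Subgroup G) < m + j →
      (∀ H : Subgroup G, Z ≤ H → H ≤ (S : Subgroup G) →
        IsSyl p ((S : Subgroup G) ⊓ Nz H) (Nz H) →
        m ≤ Nat.card ((S : Subgroup G) ⊓ Nz H : Subgroup G) →
        ∀ n ∈ Nz H, ∀ D : Subgroup G, D ≤ (S : Subgroup G) ⊓ Nz H →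
          cj n D ≤ (S : Subgroup G) ⊓ Nz H → Φ D n) ∧
      ∀ (D : Subgroup G) (g : G), m ≤ Nat.card D → D ≤ (S : Subgroup G) →
        cj g D ≤ (S : Subgroup G) → Φ D g from
    (main (Nat.card (S : Subgroup G) + 1) 0 (by omega)).2 D g (Nat.zero_le _) hD hg
  intro j
  induction j with
  | zero =>
    intro m hm
    refine ⟨fun H _ _ _ hc => ?_, fun D g hc hD => ?_⟩
    · have := Subgroup.card_le_of_le (inf_le_left : (S : Subgroup G) ⊓ Nz H ≤ S)
      omega
    · have := Subgroup.card_le_of_le hD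
      omega
  | succ j ih =>
    intro m hm
    obtain ⟨ihB, ihA⟩ := ih (m + 1) (by omega)
    have hB : ∀ H : Subgroup G, Z ≤ H → H ≤ (S : Subgroup G) →
        IsSyl p ((S : Subgroup G) ⊓ Nz H) (Nz H) →
        m ≤ Nat.card ((S : Subgroup G) ⊓ Nz H : Subgroup G) →
        ∀ n ∈ Nz H, ∀ D : Subgroup G, D ≤ (S : Subgroup G) ⊓ Nz H →
          cj n D ≤ (S : Subgroup G) ⊓ Nz H → Φ D n := by
      intro H hZH hHS hext hc
      refine hloc H hZH hHS hext fun x hx D hD hxD => ?_
      set P := (S : Subgroup G) ⊓ Nz H with hP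
      have hPp : IsPGroup p P := S.2.to_inf_left
      have hHP : H ≤ P := le_inf hHS Subgroup.le_normalizer
      have hZP : Z ≤ P := hZH.trans hHP
      have hPne : P ≠ ⊥ := fun h => hZ0 (le_bot_iff.mp (h ▸ hZP))
      rcases hx with hx | hx
      swap
      · refine hbase x (Or.inr ⟨trivial, ?_⟩) D (hD.trans inf_le_left) (hxD.trans inf_le_left)
        exact Subgroup.centralizer_le
          (hVmono _ _ S.2 hPp hS hPne (centre_le inf_le_left hZP)) hx.2
      by_cases hPS : P = (S : Subgroup G)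
      · rw [hPS] at hx hD hxD
        exact hbase x (Or.inl ⟨trivial, hx.2⟩) D hD hxD
      have hWPS : W P ≤ (S : Subgroup G) := (W_le hW hPp).trans inf_le_left
      have hgrow : P < (S : Subgroup G) ⊓ Nz (W P) :=
        (lt_inf_normalizer S inf_le_left hPS).trans_le
          (inf_le_inf_left _ (normalizer_le_Nz_W hW hPp))
      obtain ⟨k, hk, hkW, hext'⟩ := exists_extremal S hWPS
      have hcard := card_lt_card hgrow
      have hk' : Φ ((S : Subgroup G) ⊓ Nz (W P)) k :=
        ihA _ k (by omega) inf_le_left hk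
      have hPle : ∀ {E : Subgroup G}, E ≤ P → cj k E ≤ (S : Subgroup G) ⊓ Nz (cj k (W P)) := by
        intro E hE
        refine le_inf ((cj_mono _ (hE.trans hgrow.le)).trans hk) ?_
        rw [← cj_Nz]
        exact cj_mono _ ((hE.trans hgrow.le).trans inf_le_right)
      have hn : k * x * k⁻¹ ∈ Nz (cj k (W P)) := by
        rw [← cj_Nz, conj_mem_cj]
        exact hx.2
      have hcard' : m + 1 ≤ Nat.card ((S : Subgroup G) ⊓ Nz (cj k (W P)) : Subgroup G) := by
        have := Subgroup.card_le_of_le (le_inf hk (by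
          rw [← cj_Nz]; exact cj_mono _ inf_le_right) :
          cj k ((S : Subgroup G) ⊓ Nz (W P)) ≤ (S : Subgroup G) ⊓ Nz (cj k (W P)))
        rw [card_cj] at this
        omega
      have hkPS : cj k P ≤ (S : Subgroup G) := (cj_mono _ hgrow.le).trans hk
      have hkP : (S : Subgroup G) ⊓ Nz (cj k H) = cj k P := by
        have h1 := hext.map_conj k
        rw [cj_Nz] at h1
        exact h1.inf_eq hkPS
      have hZk : Z ≤ cj k (W P) := by
        have hZkP : Z ≤ cj k P := by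
          rw [← hkP]
          refine le_inf inf_le_left (inf_le_right.trans ?_)
          exact (Subgroup.centralizer_le ((cj_mono k hHP).trans hkPS)).trans
            (Subgroup.centralizer_le_normalizer _)
        rw [← W_cj hW hPp]
        exact (centre_le hkPS hZkP).trans (hWZ _ (isPGroup_cj hPp k))
      have hstep : Φ (cj k D) (k * x * k⁻¹) := by
        refine ihB _ hZk hkW hext' hcard' _ hn _ (hPle hD) ?_
        rw [cj_cj, inv_mul_cancel_right, ← cj_cj]
        exact hPle hxD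
      have := hΦ.toIsPreDecomp.conj_of (hΦ.mono (hD.trans hgrow.le) hk') hstep
        (hΦ.mono (hxD.trans hgrow.le) hk') (by rw [cj_cj, inv_mul_cancel_right])
      rwa [show k⁻¹ * (k * x * k⁻¹) * k = x by group] at this
    refine ⟨hB, fun D g hc hD hg => ?_⟩
    by_cases hm1 : m + 1 ≤ Nat.card D
    · exact ihA D g hm1 hD hg
    refine decomp_step hΦ.toIsPreDecomp hD hg (fun D' g' hlt => ihA D' g' (by omega))
      fun U hU ⟨k, hk⟩ hext => ?_
    have hcardU : Nat.card U = Nat.card D := by rw [← hk, card_cj]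
    intro n hn
    set P := (S : Subgroup G) ⊓ Nz U with hP
    set C := Subgroup.centralizer (U : Set G) with hC
    have hCn : Nz U ≤ Nz C := fun y hy => by
      rw [mem_Nz, hC, cj_centralizer, cj_eq_of_mem hy]
    have hle : U ≤ P := le_inf hU Subgroup.le_normalizer
    by_cases hCP : P ⊓ C ≤ U
    · refine hB U ?_ hU hext ?_ n hn U hle ?_
      · refine le_trans ?_ hCP
        have hZC : Z ≤ C := inf_le_right.trans (Subgroup.centralizer_le hU)
        exact le_inf (le_inf inf_le_left (hZC.trans (Subgroup.centralizer_le_normalizer _))) hZC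
      · have h1 : Nat.card U ≤ Nat.card ((S : Subgroup G) ⊓ Nz U : Subgroup G) :=
          Subgroup.card_le_of_le hle
        omega
      · rw [cj_eq_of_mem hn]; exact hle
    obtain ⟨c, hc', y, hy, hyP, rfl⟩ :=
      hext.frattini (N := C) (Subgroup.centralizer_le_normalizer _) hCn hn
    have hyE : cj y (U ⊔ P ⊓ C) = U ⊔ P ⊓ C := by
      rw [cj_sup, cj_eq_of_mem hy, cj_eq_of_mem hyP]
    have hE : U ⊔ P ⊓ C ≤ (S : Subgroup G) := sup_le hU (inf_le_left.trans inf_le_left)
    have hlt : Nat.card U < Nat.card (U ⊔ P ⊓ C : Subgroup G) :=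
      card_lt_card (lt_of_le_of_ne le_sup_left fun h => hCP (h ▸ le_sup_right))
    refine hΦ.congr (hΦ.mono le_sup_left (ihA (U ⊔ P ⊓ C) y (by omega) hE (hyE.symm ▸ hE)))
      fun d hd => ?_
    have hd' : y * d * y⁻¹ ∈ U := (cj_eq_of_mem hy).le (conj_mem_cj.mpr hd)
    rw [← conj_conj c y d, ← Subgroup.mem_centralizer_iff.mp hc' _ hd', mul_inv_cancel_right]

end Cfsg.Agent.CF

namespace Cfsg.Agent.CF

open Cfsg.Agent.Fusion

variable {G : Type*} [Group G] {p : ℕ} {W V : Subgroup G → Subgroup G}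

theorem pairStep_conj (hW : Cfsg.IsConjugacyFunctor p W) (hV : Cfsg.IsConjugacyFunctor p V)
    {H Q : Subgroup G} (hQ : IsPGroup p Q) {y : G} (hy : y ∈ H) :
    ∀ x ∈ PairStep W V H Q, MulAut.conj y x ∈ PairStep W V H (cj y Q) := by
  rintro x (hx | hx)
  · refine Or.inl ⟨H.mul_mem (H.mul_mem hy hx.1) (H.inv_mem hy), ?_⟩
    rw [W_cj hW hQ, ← cj_Nz]
    exact conj_mem_cj.mpr hx.2
  · refine Or.inr ⟨H.mul_mem (H.mul_mem hy hx.1) (H.inv_mem hy), ?_⟩
    rw [W_cj hV hQ, ← cj_centralizer]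
    exact conj_mem_cj.mpr hx.2

theorem sylow_le_pairW (hW : Cfsg.IsConjugacyFunctor p W) {H P : Subgroup G} (hP : IsSyl p P H) :
    P ≤ H ⊓ Nz (W P) :=
  le_inf hP.le (Subgroup.le_normalizer.trans (normalizer_le_Nz_W hW hP.isP))

theorem sylow_le_pairV
    (hVZ : ∀ K : Subgroup G, IsPGroup p K → V K ≤ K ⊓ Subgroup.centralizer (K : Set G))
    {H P : Subgroup G} (hP : IsSyl p P H) : P ≤ H ⊓ Subgroup.centralizer (V P : Set G) :=
  le_inf hP.le (Subgroup.le_centralizer_iff.mp ((hVZ P hP.isP).trans inf_le_right))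

/-- A chain read backwards, as a list of factors. -/
theorem reach_of_list {X : Set G} (hX : ∀ x ∈ X, x⁻¹ ∈ X) {S : Subgroup G} :
    ∀ (l : List G) (D : Subgroup G), (∀ b ∈ l, b ∈ X) →
      (∀ k, k ≤ l.length → cj ((l.take k).prod)⁻¹ D ≤ S) → Reach X S D (l.prod)⁻¹ := by
  intro l
  induction l with
  | nil =>
    intro D _ h
    refine .agree ?_ fun d _ => by simp
    simpa [cj_one] using h 0 le_rfl
  | cons b l ih =>
    intro D hl h
    refine .step (g := (l.prod)⁻¹) (hX b (hl b List.mem_cons_self)) ?_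
      (ih (cj b⁻¹ D) (fun c hc => hl c (List.mem_cons_of_mem b hc)) fun k hk => ?_)
      fun d _ => by simp [mul_inv_rev]
    · simpa [cj_one] using h 0 (Nat.zero_le _)
    · have := h (k + 1) (by simpa using hk)
      rwa [List.take_succ_cons, List.prod_cons, mul_inv_rev, ← cj_cj] at this

theorem exists_list_of_reach {X : Set G} (hX : ∀ x ∈ X, x⁻¹ ∈ X) {S : Subgroup G}
    {D : Subgroup G} {g : G} (h : Reach X S D g) :
    ∃ l : List G, (∀ b ∈ l, b ∈ X) ∧
      (∀ d ∈ D, (l.prod)⁻¹ * d * l.prod = g * d * g⁻¹) ∧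
      ∀ k, k ≤ l.length → cj ((l.take k).prod)⁻¹ D ≤ S := by
  induction h with
  | @agree D g h1 h2 =>
    refine ⟨[], by simp, fun d hd => by simp [h2 d hd], fun k _ => ?_⟩
    simpa [cj_one] using h1
  | @step D x g g' h1 h2 _ h4 ih =>
    obtain ⟨l, hl, he, hk⟩ := ih
    refine ⟨x⁻¹ :: l, ?_, fun d hd => ?_, fun k => ?_⟩
    · intro b hb
      rcases List.mem_cons.mp hb with rfl | hb
      exacts [hX x h1, hl b hb]
    · rw [← h4 d hd, ← conj_conj, ← he _ (conj_mem_cj.mpr hd), List.prod_cons]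
      group
    · cases k with
      | zero => intro _; simpa [cj_one] using h2
      | succ k =>
        intro hle
        rw [List.take_succ_cons, List.prod_cons, mul_inv_rev, ← cj_cj, inv_inv]
        exact hk k (by simpa using hle)

theorem cj_inv_closure_le {X : Set G} {a : G} {Q : Subgroup G}
    (h : (fun x => a⁻¹ * x * a) '' X ⊆ Q) : cj a⁻¹ (Subgroup.closure X) ≤ Q :=
  cj_closure_le (by
    intro y hy
    refine h ?_
    simpa using hy)

end Cfsg.Agent.CF
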