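import Mathlib.GroupTheory.SpecificGroups.KleinFour
import Mathlib.GroupTheory.Subgroup.Centralizer
import Mathlib.GroupTheory.Subgroup.Simple

/-!
An involution with conjugates filling a four-group and fixed-point-free on normal subgroups.
-/

set_option autoImplicit false

namespace Cfsg.Agent.CF

variable {H : Type*} [Group H] [Finite H]

theorem eq_bot_of_abelian (z : H) (hz : orderOf z = 2)
    (hN : ∀ N : Subgroup H, N.Normal → N ≠ ⊤ → N ⊓ Subgroup.centralizer ({z} : Set H) = ⊥)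
    (E : Subgroup H) (hE : IsKleinFour ↥E) (hzE : z ∈ E) (hc : ∀ e ∈ E, e ≠ 1 → IsConj z e)
    (N : Subgroup H) [N.Normal] (hab : IsMulCommutative ↥N) : N = ⊥ := by
  haveI := hE
  have hz1 : z ≠ 1 := fun h => by rw [h, orderOf_one] at hz; omega
  have hzz : z * z = 1 := by
    have := pow_orderOf_eq_one z
    rwa [hz, pow_two] at this
  obtain ⟨e, heE, hez, he1⟩ : ∃ e ∈ E, e ≠ z ∧ e ≠ 1 := by
    haveI := Fintype.ofFinite E
    classical
    have hcard : Fintype.card E = 4 := by rw [← Nat.card_eq_fintype_card]; exact IsKleinFour.card_four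
    have : ((Finset.univ : Finset E) \ {⟨z, hzE⟩, 1}).Nonempty := by
      rw [← Finset.card_pos, Finset.card_sdiff_of_subset (Finset.subset_univ _), Finset.card_univ,
        hcard]
      have h2 : ({⟨z, hzE⟩, 1} : Finset E).card ≤ 2 := Finset.card_le_two
      omega
    obtain ⟨e, he⟩ := this
    simp only [Finset.mem_sdiff, Finset.mem_insert, Finset.mem_singleton, not_or] at he
    exact ⟨e, e.2, fun h => he.2.1 (Subtype.ext h), fun h => he.2.2 (Subtype.ext h)⟩
  have hne : N ≠ ⊤ := by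
    intro htop
    obtain ⟨g, hg⟩ := isConj_iff.mp (hc e heE he1)
    have h1 := congrArg Subtype.val (hab.is_comm.comm (⟨g, htop ▸ Subgroup.mem_top g⟩ : N)
      ⟨z, htop ▸ Subgroup.mem_top z⟩)
    simp only [Subgroup.coe_mul] at h1
    rw [h1, mul_inv_cancel_right] at hg
    exact hez hg.symm
  have hinvz : ∀ x ∈ N, z * x * z⁻¹ = x⁻¹ := by
    intro x hx
    have hy : z * x * z⁻¹ ∈ N := (inferInstance : N.Normal).conj_mem x hx z
    have hcomm := congrArg Subtype.val (hab.is_comm.comm (⟨x, hx⟩ : N) ⟨_, hy⟩)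
    simp only [Subgroup.coe_mul] at hcomm
    have hfix : z * (x * (z * x * z⁻¹)) * z⁻¹ = x * (z * x * z⁻¹) := by
      calc z * (x * (z * x * z⁻¹)) * z⁻¹ = z * x * z⁻¹ * (z * z * x * (z * z)⁻¹) := by group
        _ = z * x * z⁻¹ * x := by rw [hzz]; group
        _ = x * (z * x * z⁻¹) := hcomm.symm
    have h1 : x * (z * x * z⁻¹) ∈ N ⊓ Subgroup.centralizer ({z} : Set H) := by
      refine ⟨N.mul_mem hx hy, Subgroup.mem_centralizer_iff.mpr ?_⟩
      intro w hw
      rw [Set.mem_singleton_iff.mp hw]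
      conv_rhs => rw [← hfix]
      group
    rw [hN N inferInstance hne, Subgroup.mem_bot] at h1
    exact eq_inv_of_mul_eq_one_right h1
  have hinv : ∀ f ∈ E, f ≠ 1 → ∀ x ∈ N, f * x * f⁻¹ = x⁻¹ := by
    intro f hf hf1 x hx
    obtain ⟨g, rfl⟩ := isConj_iff.mp (hc f hf hf1)
    have h1 := hinvz (g⁻¹ * x * g) (by simpa using (inferInstance : N.Normal).conj_mem x hx g⁻¹)
    calc g * z * g⁻¹ * x * (g * z * g⁻¹)⁻¹ = g * (z * (g⁻¹ * x * g) * z⁻¹) * g⁻¹ := by group
      _ = x⁻¹ := by rw [h1]; group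
  have hze : z * e ≠ 1 := fun h => hez (by
    rw [← mul_right_inj z, h, hzz])
  refine (Subgroup.eq_bot_iff_forall _).mpr fun x hx => ?_
  have h1 := hinv (z * e) (E.mul_mem hzE heE) hze x hx
  have h2 : z * e * x * (z * e)⁻¹ = x := by
    calc z * e * x * (z * e)⁻¹ = z * (e * x * e⁻¹) * z⁻¹ := by group
      _ = (z * x * z⁻¹)⁻¹ := by rw [hinv e heE he1 x hx]; group
      _ = x := by rw [hinvz x hx, inv_inv]
  rw [h2] at h1
  have h3 : x * x = 1 := by
    nth_rewrite 2 [h1]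
    exact mul_inv_cancel x
  have h4 : z * x * z⁻¹ = x := by rw [hinvz x hx, ← h1]
  have h5 : x ∈ N ⊓ Subgroup.centralizer ({z} : Set H) := by
    refine ⟨hx, Subgroup.mem_centralizer_iff.mpr ?_⟩
    intro w hw
    rw [Set.mem_singleton_iff.mp hw]
    conv_rhs => rw [← h4]
    group
  rwa [hN N inferInstance hne, Subgroup.mem_bot] at h5

theorem isSimpleGroup_of_fourGroup (z : H) (hz : orderOf z = 2)
    (hN : ∀ N : Subgroup H, N.Normal → N ≠ ⊤ → N ⊓ Subgroup.centralizer ({z} : Set H) = ⊥)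
    (E : Subgroup H) (hE : IsKleinFour ↥E) (hzE : z ∈ E) (hc : ∀ e ∈ E, e ≠ 1 → IsConj z e) :
    IsSimpleGroup H := by
  have hz1 : z ≠ 1 := fun h => by rw [h, orderOf_one] at hz; omega
  have hzz : z * z = 1 := by
    have := pow_orderOf_eq_one z
    rwa [hz, pow_two] at this
  haveI : Nontrivial H := ⟨⟨z, 1, hz1⟩⟩
  refine ⟨fun N hn => ?_⟩
  by_cases htop : N = ⊤
  · exact Or.inr htop
  left
  haveI := hn
  let f : N → N := fun x => ⟨(x : H)⁻¹ * (z * x * z⁻¹),
    N.mul_mem (N.inv_mem x.2) (hn.conj_mem x x.2 z)⟩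
  have hinj : Function.Injective f := by
    intro x y hxy
    have h : (x : H)⁻¹ * (z * x * z⁻¹) = (y : H)⁻¹ * (z * y * z⁻¹) := congrArg Subtype.val hxy
    have h1 : (y : H) * (x : H)⁻¹ ∈ N ⊓ Subgroup.centralizer ({z} : Set H) := by
      refine ⟨N.mul_mem y.2 (N.inv_mem x.2), Subgroup.mem_centralizer_iff.mpr ?_⟩
      intro w hw
      rw [Set.mem_singleton_iff.mp hw]
      calc z * ((y : H) * (x : H)⁻¹) = (z * y * z⁻¹) * (z * x * z⁻¹)⁻¹ * z := by group
        _ = (y * ((y : H)⁻¹ * (z * y * z⁻¹))) * (x * ((x : H)⁻¹ * (z * x * z⁻¹)))⁻¹ * z := by group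
        _ = (y * ((y : H)⁻¹ * (z * y * z⁻¹))) * (x * ((y : H)⁻¹ * (z * y * z⁻¹)))⁻¹ * z := by rw [h]
        _ = (y : H) * (x : H)⁻¹ * z := by group
    rw [hN N hn htop, Subgroup.mem_bot, mul_inv_eq_one] at h1
    exact Subtype.ext h1.symm
  have hsurj : Function.Surjective f := Finite.injective_iff_surjective.mp hinj
  have hinv : ∀ y ∈ N, z * y * z⁻¹ = y⁻¹ := by
    intro y hy
    obtain ⟨x, hx⟩ := hsurj ⟨y, hy⟩
    rw [← show (x : H)⁻¹ * (z * x * z⁻¹) = y from congrArg Subtype.val hx]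
    calc z * ((x : H)⁻¹ * (z * x * z⁻¹)) * z⁻¹ = (z * x * z⁻¹)⁻¹ * (z * z * x * (z * z)⁻¹) := by group
      _ = ((x : H)⁻¹ * (z * x * z⁻¹))⁻¹ := by rw [hzz]; group
  refine eq_bot_of_abelian z hz hN E hE hzE hc N ⟨⟨fun a b => Subtype.ext ?_⟩⟩
  have h1 := hinv _ (N.mul_mem a.2 b.2)
  rw [show z * ((a : H) * b) * z⁻¹ = z * a * z⁻¹ * (z * b * z⁻¹) by group, hinv _ a.2, hinv _ b.2,
    ← mul_inv_rev] at h1
  simpa using (inv_injective h1).symm

end Cfsg.Agent.CF
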