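import Cfsg.Agent.CF.Sections
import Cfsg.Agent.EvenLocal.Qd

/-!
In `Qd(p)` no family of iso-invariant functors controls fusion.
-/

set_option autoImplicit false

namespace Cfsg.Agent.CF

open Cfsg.Agent.Fusion EvenLocal.Qd

universe u

variable {p : ℕ} [Fact p.Prime] {X : Type u} [Group X] [Finite X]
  {𝓦 : Set (∀ (Q : Type u) [Group Q], Subgroup Q)}

/-- In a copy of `Qd(p)` the normalizers of the values of functors on `uni` lie in the Borel subgroup. -/
theorem Nz_induced_le_borel {W : ∀ (Q : Type u) [Group Q], Subgroup Q}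
    (hW : Cfsg.IsCharPFunctor.{u} p W) (e : X ≃* ↥(Cfsg.qdOver (ZMod p))) :
    Nz (Cfsg.inducedFunctor W ((uni (ZMod p)).comap e.toMonoidHom)) ≤
      (EvenLocal.Qd.borel (ZMod p)).comap e.toMonoidHom := by
  set U := uni (ZMod p) with hU
  set U' := U.comap e.toMonoidHom with hU'
  have hUp : IsPGroup p ↥U' := uni_isPGroup.comap_of_injective _ e.injective
  let j : ↥U' ≃* ↥U :=
    { toFun := fun x => ⟨e x, x.2⟩
      invFun := fun y => ⟨e.symm y, show e (e.symm y) ∈ U by rw [e.apply_symm_apply]; exact y.2⟩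
      left_inv := fun x => Subtype.ext (e.symm_apply_apply _)
      right_inv := fun y => Subtype.ext (e.apply_symm_apply _)
      map_mul' := fun x y => Subtype.ext (map_mul e _ _) }
  set T := (W ↥U').map j.toMonoidHom with hT
  have hTc : T.Characteristic := by
    refine Subgroup.characteristic_iff_map_eq.2 fun φ => ?_
    have hφ := hW.2 ↥U' ↥U' hUp ((j.trans φ).trans j.symm)
    conv_rhs => rw [hT, ← hφ, Subgroup.map_map]
    rw [hT, Subgroup.map_map]
    congr 1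
    ext x
    simp
  have hne : Nontrivial ↥U' := by
    refine ⟨⟨j.symm ⟨uniEl 1 0 0, uniEl_mem _ _ _⟩, 1, fun h => ?_⟩⟩
    have h' : (⟨uniEl 1 0 0, uniEl_mem _ _ _⟩ : ↥U) = 1 := j.symm.injective (h.trans (map_one _).symm)
    have h2 := congrArg (fun M : ↥U => ((lin (M : ↥(Cfsg.qdOver (ZMod p))) :
      Matrix (Fin 2) (Fin 2) (ZMod p)) 0 1)) h'
    simp [uniEl, lin_mkEl] at h2
  have hTne : T ≠ ⊥ := fun h => hW.1 ↥U' hUp hne
    ((Subgroup.map_eq_bot_iff_of_injective _ j.injective).1 h)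
  have hmap : T.map U.subtype = (Cfsg.inducedFunctor W U').map e.toMonoidHom := by
    rw [hT, Cfsg.inducedFunctor, Subgroup.map_map, Subgroup.map_map]
    rfl
  intro x hx
  show e x ∈ EvenLocal.Qd.borel (ZMod p)
  rw [← normalizer_characteristic_uni T hTne hTc, hmap]
  exact Subgroup.le_normalizer_map e.toMonoidHom ⟨x, hx, rfl⟩

/-- In a copy of `Qd(p)` fusion is never controlled by a family of iso-invariant functors. -/
theorem not_fusIn_qd (h𝓦 : ∀ W ∈ 𝓦, Cfsg.IsCharPFunctor.{u} p W)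
    (e : X ≃* ↥(Cfsg.qdOver (ZMod p))) :
    ∃ S : Sylow p X, ¬ FusIn (Fam 𝓦 X) ⊤ (S : Subgroup X) := by
  set U := uni (ZMod p) with hU
  let T₀ : Sylow p ↥(Cfsg.qdOver (ZMod p)) :=
    ⟨U, uni_isPGroup, fun hQ hle => uni_maximal hQ hle⟩
  let S : Sylow p X := T₀.comapOfInjective e.toMonoidHom e.injective (by
    rw [MonoidHom.range_eq_top.mpr e.surjective]; exact le_top)
  refine ⟨S, fun hfus => ?_⟩
  set a : ↥(Cfsg.qdOver (ZMod p)) := mkEl 1 ![1, 0] with ha
  set b : ↥(Cfsg.qdOver (ZMod p)) := mkEl 1 ![0, 1] with hb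
  obtain ⟨A, hA⟩ := exists_mulVec_eq (F := ZMod p) (v := ![0, 1]) (fun he => by
    simpa using congrFun he 1)
  obtain ⟨hc1, hc2⟩ := conj_translation (mkEl A 0) a (lin_mkEl 1 _)
  have hga : mkEl A 0 * a * (mkEl A 0)⁻¹ = b := by
    refine ext_lin_tr (hc1.trans (lin_mkEl 1 _).symm) ?_
    rw [hc2, lin_mkEl, tr_mkEl, tr_mkEl, hA]
  have haU : a ∈ U := ker_le_uni (lin_mkEl 1 _)
  have hbU : b ∈ U := ker_le_uni (lin_mkEl 1 _)
  have hdS : ∀ y ∈ U, e.symm y ∈ (S : Subgroup X) := fun y hy => by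
    show e (e.symm y) ∈ U
    rwa [e.apply_symm_apply]
  have hgb : e.symm (mkEl A 0) * e.symm a * (e.symm (mkEl A 0))⁻¹ = e.symm b := by
    rw [← map_inv, ← map_mul, ← map_mul, hga]
  have hcj : cj (e.symm (mkEl A 0)) (Subgroup.zpowers (e.symm a)) ≤ (S : Subgroup X) :=
    cj_zpowers_le (by rw [hgb]; exact hdS b hbU)
  have hX : FusStep (Fam 𝓦 X) ⊤ (S : Subgroup X) ⊆
      ((EvenLocal.Qd.borel (ZMod p)).comap e.toMonoidHom : Subgroup X) := by
    rintro x ⟨_, ⟨W, hW, rfl⟩, hx⟩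
    exact Nz_induced_le_borel (h𝓦 W hW) e hx.2
  obtain ⟨n, hn, he⟩ := (hfus _ (Subgroup.zpowers_le.2 (hdS a haU)) (e.symm (mkEl A 0))
    trivial hcj).of_subgroup hX
  have h1 := congrArg e (he _ (Subgroup.mem_zpowers _))
  simp only [hgb, map_mul, map_inv, e.apply_symm_apply] at h1
  have h2 := (conj_translation (e n) a (lin_mkEl 1 _)).2
  rw [h1, tr_mkEl, tr_mkEl] at h2
  have h3 := congrFun h2 1
  have hx10 : (lin (e n) : Matrix (Fin 2) (Fin 2) (ZMod p)) 1 0 = 0 := hn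
  simp [Matrix.mulVec, dotProduct, Fin.sum_univ_two, hx10] at h3

end Cfsg.Agent.CF
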